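import Groth.Prelude.Def_Cone
import Mathlib.AlgebraicGeometry.Morphisms.Affine
import Mathlib.AlgebraicGeometry.Morphisms.UnderlyingMap
import Mathlib.RingTheory.GradedAlgebra.Homogeneous.Ideal

/-!
# The pointed affine cone: charts cover, ranges, description of the canonical retraction on points
-/

set_option autoImplicit false
universe u
open CategoryTheory CategoryTheory.Limits AlgebraicGeometry

namespace Groth.Agent.Ega2.H284.ConeBasic

variable {R A : Type u} [CommRing R] [CommRing A] [Algebra R A] (𝒜 : ℕ → Submodule R A) [GradedAlgebra 𝒜]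

section charts

variable {𝒜}

@[reassoc]
lemma chart_ι {d : ℕ} {f : A} (hf : f ∈ 𝒜 d) (hd : 0 < d) :
    Cone.chart hf hd ≫ (Cone.pointed 𝒜).ι =
      Spec.map (CommRingCat.ofHom (algebraMap A (Localization.Away f))) :=
  IsOpenImmersion.lift_fac _ _ _

instance isOpenImmersion_chart {d : ℕ} {f : A} (hf : f ∈ 𝒜 d) (hd : 0 < d) :
    IsOpenImmersion (Cone.chart (𝒜 := 𝒜) hf hd) := by
  have h1 : IsOpenImmersion (Cone.chart hf hd ≫ (Cone.pointed 𝒜).ι) := by
    rw [chart_ι hf hd]; infer_instance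
  exact IsOpenImmersion.of_comp _ (Cone.pointed 𝒜).ι

lemma opensRange_chart {d : ℕ} {f : A} (hf : f ∈ 𝒜 d) (hd : 0 < d) :
    (Cone.chart (𝒜 := 𝒜) hf hd).opensRange = (Cone.pointed 𝒜).ι ⁻¹ᵁ Cone.coneOpen f := by
  ext x
  constructor
  · rintro ⟨y, rfl⟩
    change (Cone.pointed 𝒜).ι.base ((Cone.chart hf hd).base y) ∈ (PrimeSpectrum.basicOpen f : Set (PrimeSpectrum A))
    rw [← PrimeSpectrum.localization_away_comap_range (Localization.Away f) f]
    refine ⟨y, ?_⟩
    have := congrArg (fun g => g.base y) (chart_ι hf hd)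
    exact this.symm
  · intro hx
    have hx' : (Cone.pointed 𝒜).ι.base x ∈ (PrimeSpectrum.basicOpen f : Set (PrimeSpectrum A)) := hx
    rw [← PrimeSpectrum.localization_away_comap_range (Localization.Away f) f] at hx'
    obtain ⟨y, hy⟩ := hx'
    refine ⟨y, ?_⟩
    apply (Cone.pointed 𝒜).ι.isOpenEmbedding.injective
    have := congrArg (fun g => g.base y) (chart_ι hf hd)
    exact this.trans hy

variable (𝒜)

/-- A prime not containing `A_+` misses a homogeneous element of positive degree. -/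
lemma exists_homog_notMem (x : (Cone.pointed 𝒜 : Scheme.{u})) :
    ∃ (d : ℕ) (f : A), 0 < d ∧ f ∈ 𝒜 d ∧ f ∉ ((Cone.pointed 𝒜).ι.base x).asIdeal := by
  classical
  by_contra! H
  have hx : (Cone.pointed 𝒜).ι.base x ∈ Cone.pointed 𝒜 := x.2
  apply hx
  change (HomogeneousIdeal.irrelevant 𝒜).toIdeal ≤ ((Cone.pointed 𝒜).ι.base x).asIdeal
  intro a ha
  rw [← DirectSum.sum_support_decompose 𝒜 a]
  refine Ideal.sum_mem _ fun c _ => ?_
  rcases Nat.eq_zero_or_pos c with rfl | hc
  · have : (DirectSum.decompose 𝒜 a 0 : A) = 0 := by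
      rw [HomogeneousIdeal.mem_iff, HomogeneousIdeal.mem_irrelevant_iff] at ha
      exact ha
    rw [this]; exact Ideal.zero_mem _
  · exact H c _ hc (SetLike.coe_mem _)

/-- Every point of `E` lies in one of the charts. -/
lemma exists_chart_eq (x : (Cone.pointed 𝒜 : Scheme.{u})) :
    ∃ (d : ℕ) (f : A) (hd : 0 < d) (hf : f ∈ 𝒜 d) (y : Spec (CommRingCat.of (Localization.Away f))),
      (Cone.chart hf hd).base y = x := by
  obtain ⟨d, f, hd, hf, hx⟩ := exists_homog_notMem 𝒜 x
  refine ⟨d, f, hd, hf, ?_⟩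
  have : x ∈ (Cone.chart (𝒜 := 𝒜) hf hd).opensRange := by
    rw [opensRange_chart]; exact hx
  exact this

end charts

section retraction

variable {𝒜}
variable {π : (Cone.pointed 𝒜 : Scheme.{u}) ⟶ Proj 𝒜}
    (hπ : ∀ (d : ℕ) (f : A) (hd : 0 < d) (hf : f ∈ 𝒜 d),
        Cone.chart hf hd ≫ π =
          Spec.map (CommRingCat.ofHom (algebraMap (HomogeneousLocalization.Away 𝒜 f) (Localization.Away f))) ≫
            Proj.awayι 𝒜 f hf hd)

include hπ

/-- `π⁻¹(D_+(g)) = D(g)` for `g` homogeneous of positive degree. -/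
lemma preimage_basicOpen {e : ℕ} {g : A} (he : 0 < e) (hg : g ∈ 𝒜 e) :
    π ⁻¹ᵁ Proj.basicOpen 𝒜 g = (Cone.pointed 𝒜).ι ⁻¹ᵁ Cone.coneOpen g := by
  ext x
  obtain ⟨d, f, hd, hf, y, rfl⟩ := exists_chart_eq 𝒜 x
  change π.base ((Cone.chart hf hd).base y) ∈ Proj.basicOpen 𝒜 g ↔
    (Cone.pointed 𝒜).ι.base ((Cone.chart hf hd).base y) ∈ Cone.coneOpen g
  have h1 : π.base ((Cone.chart hf hd).base y) = (Proj.awayι 𝒜 f hf hd).base
      ((Spec.map (CommRingCat.ofHom (algebraMap (HomogeneousLocalization.Away 𝒜 f)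
        (Localization.Away f)))).base y) :=
    congrArg (fun g => g.base y) (hπ d f hd hf)
  have h2 : (Cone.pointed 𝒜).ι.base ((Cone.chart hf hd).base y) =
      (Spec.map (CommRingCat.ofHom (algebraMap A (Localization.Away f)))).base y :=
    congrArg (fun g => g.base y) (chart_ι hf hd)
  rw [h1, h2]
  have h3 : (Proj.awayι 𝒜 f hf hd).base
      ((Spec.map (CommRingCat.ofHom (algebraMap (HomogeneousLocalization.Away 𝒜 f)
        (Localization.Away f)))).base y) ∈ Proj.basicOpen 𝒜 g ↔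
      ((Spec.map (CommRingCat.ofHom (algebraMap (HomogeneousLocalization.Away 𝒜 f)
        (Localization.Away f)))).base y) ∈
        (PrimeSpectrum.basicOpen (HomogeneousLocalization.Away.isLocalizationElem hf hg) :
          TopologicalSpace.Opens (PrimeSpectrum (HomogeneousLocalization.Away 𝒜 f))) := by
    rw [← Proj.awayι_preimage_basicOpen 𝒜 hf hd hg he]
    rfl
  rw [h3]
  change (algebraMap (HomogeneousLocalization.Away 𝒜 f) (Localization.Away f))
      (HomogeneousLocalization.Away.isLocalizationElem hf hg) ∉ y.asIdeal ↔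
    (algebraMap A (Localization.Away f)) g ∉ y.asIdeal
  have h4 : (algebraMap (HomogeneousLocalization.Away 𝒜 f) (Localization.Away f))
      (HomogeneousLocalization.Away.isLocalizationElem hf hg) * (algebraMap A (Localization.Away f)) (f ^ e) =
      (algebraMap A (Localization.Away f) g) ^ d := by
    rw [HomogeneousLocalization.algebraMap_apply, HomogeneousLocalization.Away.val_mk,
      Localization.mk_eq_mk', IsLocalization.mk'_spec, map_pow]
  have hfu : IsUnit ((algebraMap A (Localization.Away f)) (f ^ e)) := by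
    rw [map_pow]
    exact (IsLocalization.Away.algebraMap_isUnit f).pow e
  rw [not_iff_not, ← Ideal.mul_unit_mem_iff_mem y.asIdeal hfu, h4, Ideal.IsPrime.pow_mem_iff_mem y.2 _ hd]

/-- `π` sends a point `p` of `E`, a prime of `A` not containing `A_+`, to the homogeneous prime whose
homogeneous elements are those of `p`. -/
lemma asHomogeneousIdeal_base (p : (Cone.pointed 𝒜 : Scheme.{u})) :
    (π.base p).asHomogeneousIdeal = (((Cone.pointed 𝒜).ι.base p).asIdeal).homogeneousCore 𝒜 := by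
  have key : ∀ (i : ℕ), 0 < i → ∀ x ∈ 𝒜 i, (x ∈ (π.base p).asHomogeneousIdeal ↔
      x ∈ ((Cone.pointed 𝒜).ι.base p).asIdeal) := by
    intro i hi x hx
    have h := preimage_basicOpen hπ hi hx
    have h' : p ∈ π ⁻¹ᵁ Proj.basicOpen 𝒜 x ↔ p ∈ (Cone.pointed 𝒜).ι ⁻¹ᵁ Cone.coneOpen x := by rw [h]
    exact not_iff_not.mp h'
  apply HomogeneousIdeal.ext'
  intro i x hx
  have hcore : x ∈ (((Cone.pointed 𝒜).ι.base p).asIdeal).homogeneousCore 𝒜 ↔
      x ∈ ((Cone.pointed 𝒜).ι.base p).asIdeal :=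
    ⟨fun h => Ideal.toIdeal_homogeneousCore_le 𝒜 _ h,
      fun h => Ideal.mem_homogeneousCore_of_homogeneous_of_mem ⟨i, hx⟩ h⟩
  rw [hcore]
  rcases Nat.eq_zero_or_pos i with rfl | hi
  · obtain ⟨d, f, hd, hf, hfx⟩ := exists_homog_notMem 𝒜 p
    have hfπ : f ∉ (π.base p).asHomogeneousIdeal := fun h => hfx ((key d hd f hf).mp h)
    have hxf : x * f ∈ 𝒜 d := by
      have := SetLike.mul_mem_graded hx hf
      rwa [zero_add] at this
    have h1 : x ∈ (π.base p).asHomogeneousIdeal ↔ x * f ∈ (π.base p).asHomogeneousIdeal := by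
      constructor
      · intro h
        exact Ideal.mul_mem_right f (π.base p).asHomogeneousIdeal.toIdeal h
      · intro h
        exact ((π.base p).isPrime.mem_or_mem h).resolve_right hfπ
    have h2 : x ∈ ((Cone.pointed 𝒜).ι.base p).asIdeal ↔ x * f ∈ ((Cone.pointed 𝒜).ι.base p).asIdeal := by
      constructor
      · intro h
        exact Ideal.mul_mem_right f _ h
      · intro h
        exact (((Cone.pointed 𝒜).ι.base p).isPrime.mem_or_mem h).resolve_right hfx
    rw [h1, h2]
    exact key d hd _ hxf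
  · exact key i hi x hx

lemma isAffineHom : IsAffineHom π := by
  apply isAffineHom_of_forall_exists_isAffineOpen
  intro z
  obtain ⟨j, y, hy⟩ := (Proj.affineOpenCover 𝒜).openCover.exists_eq z
  refine ⟨Proj.basicOpen 𝒜 (j.2 : A), ?_, Proj.isAffineOpen_basicOpen 𝒜 _ j.2.2 j.1.2, ?_⟩
  · rw [← Proj.opensRange_awayι 𝒜 _ j.2.2 j.1.2]
    exact ⟨y, hy⟩
  · rw [preimage_basicOpen hπ j.1.2 j.2.2, ← opensRange_chart (𝒜 := 𝒜) j.2.2 j.1.2]
    have := isOpenImmersion_chart (𝒜 := 𝒜) j.2.2 j.1.2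
    exact isAffineOpen_opensRange (Cone.chart (𝒜 := 𝒜) j.2.2 j.1.2)

lemma surjective : Surjective π := by
  constructor
  intro z
  let q : Spec (CommRingCat.of A) := ⟨z.asHomogeneousIdeal.toIdeal, z.isPrime⟩
  have hq : q ∈ Cone.pointed 𝒜 := fun h => z.not_irrelevant_le h
  let p : (Cone.pointed 𝒜 : Scheme.{u}) := ⟨q, hq⟩
  refine ⟨p, ?_⟩
  apply ProjectiveSpectrum.ext
  have h := asHomogeneousIdeal_base hπ p
  refine h.trans ?_
  exact HomogeneousIdeal.toIdeal_homogeneousCore_eq_self z.asHomogeneousIdeal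

end retraction

end Groth.Agent.Ega2.H284.ConeBasic
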