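import Groth.Agent.Ega2.H303.FibRep
import Groth.Agent.Ega2.H275.FrameNorm
import Mathlib.RingTheory.TensorProduct.IsBaseChangeFree
import Mathlib.Algebra.Category.Ring.Constructions

/-!
# The system of the generic norms over an open with a frame

`surjective_ev_of_fr`: if `g_* O` has a frame over the affine open `U` then the algebra of the coefficients of the generic
norms over `U` consists of functions.
-/

set_option autoImplicit false
set_option linter.dupNamespace false
universe u

open CategoryTheory CategoryTheory.Limits AlgebraicGeometry Opposite TopologicalSpace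

namespace Groth.Agent.Ega2.H284.FreeSurj

open AlgebraicGeometry.Scheme.AffineZariskiSite AlgebraicGeometry.Scheme
open Groth.Agent.Ega2.H303.SubModel Groth.Agent.Ega2.H303.SubNorm Groth.Agent.Ega2.H303.FibAlg
  Groth.Agent.Ega2.H303.FibRep
open Groth.Agent.Ega2.H284.NormLaw Groth.Agent.Ega2.H284.NormLawLoc Groth.Agent.Fdesc.LocGen
open Groth.Agent.Ega2.H275.FrameNorm

/-- Base change of a basis along a cocartesian square. -/
theorem exists_basis_of_isPushout {R B κ L : CommRingCat.{u}} (f : R ⟶ B) (e : R ⟶ κ) (t : B ⟶ L) (k : κ ⟶ L)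
    (sq : IsPushout f e t k) {r : ℕ}
    (β : @Module.Basis (Fin r) R B _ _ (@Algebra.toModule _ _ _ _ f.hom.toAlgebra)) :
    ∃ β' : @Module.Basis (Fin r) κ L _ _ (@Algebra.toModule _ _ _ _ k.hom.toAlgebra), ∀ i, β' i = t (β i) := by
  let _ := f.hom.toAlgebra
  let _ := e.hom.toAlgebra
  let _ := t.hom.toAlgebra
  let _ := k.hom.toAlgebra
  let _ : Algebra R L := (f ≫ t).hom.toAlgebra
  have : IsScalarTower R B L := IsScalarTower.of_algebraMap_eq' rfl
  have : IsScalarTower R κ L := IsScalarTower.of_algebraMap_eq' (congrArg CommRingCat.Hom.hom sq.w)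
  have h1 : IsPushout (CommRingCat.ofHom <| algebraMap R κ) (CommRingCat.ofHom <| algebraMap R B)
      (CommRingCat.ofHom <| algebraMap κ L) (CommRingCat.ofHom <| algebraMap B L) := sq.flip
  have h2 : Algebra.IsPushout R κ B L := CommRingCat.isPushout_iff_isPushout.1 h1
  exact ⟨h2.out.basis β, fun i => h2.out.basis_apply β i⟩

variable {X₁ X : Scheme.{u}} {g : X₁ ⟶ X} {n : ℕ} [IsFinite g]

attribute [local instance] algL algB algκ

theorem exists_basis_fiber (x : X) {U : X.Opens} (hU : IsAffineOpen U) (hx : x ∈ U) {r : ℕ}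
    (β : Module.Basis (Fin r) Γ(X, U) Γ(X₁, g ⁻¹ᵁ U)) :
    ∃ β' : Module.Basis (Fin r) (X.residueField x) Γ(g.fiber x, ⊤), ∀ i, β' i = toL g x hx (β i) :=
  exists_basis_of_isPushout _ _ _ _ (isPushout_toL g x hU hx) β

theorem PReg_eq' {K L : Type*} [CommRing K] [CommRing L] [Algebra K L] {d r : ℕ} (h : d = r)
    (β : Module.Basis (Fin d) K L) (β' : Module.Basis (Fin r) K L) {ι : Type*} [Fintype ι] (b : ι → L) :
    PReg β b = PReg β' b := by
  subst h
  exact PReg_eq β β' b

theorem P_repη (h : Unif g n) {U : X.Opens} (hU : IsAffineOpen U) {r : ℕ}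
    (β : Module.Basis (Fin r) Γ(X, U) Γ(X₁, g ⁻¹ᵁ U)) (η : MaxPt X U) {ι : Type*} [Fintype ι]
    (b : ι → Γ(X₁, g ⁻¹ᵁ U)) :
    P (repη h U η) b = MvPolynomial.map (X.evaluation U η.1 η.2.2).hom (PReg β b ^ (n / r)) := by
  obtain ⟨β', hβ'⟩ := exists_basis_fiber (g := g) η.1 hU η.2.2 β
  have hdeg : deg g η.1 = r := by
    rw [deg, Module.finrank_eq_card_basis β', Fintype.card_fin]
  have h1 : P (repη h U η) b = P (rep (basis g η.1) (Nat.mul_div_cancel' (h η.1 η.2.1)))
      ((toL g η.1 η.2.2).hom ∘ b) := rfl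
  rw [h1, P_rep, PReg_eq' hdeg (basis g η.1) β', map_pow, hdeg]
  congr 1
  refine (PReg_map β β' (X.evaluation U η.1 η.2.2).hom (toL g η.1 η.2.2).hom ?_ ?_ b).symm
  · intro a
    exact toL_app g η.1 η.2.2 a
  · intro i
    exact (hβ' i).symm

/-- Over an affine open with a frame, the algebra of the coefficients of the generic norms consists of functions. -/
theorem surjective_ev_of_basis (h : Unif g n) (U : X.AffineZariskiSite) {r : ℕ}
    (β : Module.Basis (Fin r) Γ(X, U.toOpens) Γ(X₁, g ⁻¹ᵁ U.toOpens)) :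
    Function.Surjective ((sys h).ev U) := by
  have h1 : alg (repU h U.toOpens) ≤ (Algebra.ofId Γ(X, U.toOpens) (K X U.toOpens)).range := by
    apply mem_range_of_coeff
    intro s b m
    refine ⟨MvPolynomial.coeff m (PReg β b ^ (n / r)), ?_⟩
    funext η
    have h2 : MvPolynomial.coeff m (P (repU h U.toOpens) b) η = MvPolynomial.coeff m (P (repη h U.toOpens η) b) :=
      coeff_piRep (repη h U.toOpens) η b m
    rw [h2, P_repη h U.2 β η b, MvPolynomial.coeff_map]
    rfl
  rintro ⟨c, hc⟩
  obtain ⟨a, ha⟩ := h1 hc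
  exact ⟨a, Subtype.ext ha⟩

/-- Over an affine open with a frame, the algebra of the coefficients of the generic norms consists of functions. -/
theorem surjective_ev_of_fr (h : Unif g n) (U : X.AffineZariskiSite) {r : ℕ} (fr : Fr g U.toOpens r) :
    Function.Surjective ((sys h).ev U) :=
  surjective_ev_of_basis h U (fr.basis le_rfl)

/-- Restriction of a frame to a smaller open. -/
theorem exists_surjective_ev_of_fr (h : Unif g n) (x : X) (T : X.Opens) (hxT : x ∈ T) {W : X.Opens} (hxW : x ∈ W)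
    {r : ℕ} (fr : Fr g W r) :
    ∃ U : X.AffineZariskiSite, x ∈ U.toOpens ∧ U.toOpens ≤ T ∧ Function.Surjective ((sys h).ev U) := by
  obtain ⟨U, hU, hxU, hUT⟩ := exists_isAffineOpen_mem_and_subset (x := x) (U := T ⊓ W) ⟨hxT, hxW⟩
  have h1 : U ≤ W := hUT.trans inf_le_right
  exact ⟨⟨U, hU⟩, hxU, hUT.trans inf_le_left, surjective_ev_of_fr h ⟨U, hU⟩ (fr.restr h1)⟩

end Groth.Agent.Ega2.H284.FreeSurj
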