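import Groth.Agent.Ega2.H284.FreeSurj
import Groth.Agent.Ega2.H286.FreeCp

/-!
# The system of the generic norms at a point where `g_* O` is locally free
-/

set_option autoImplicit false
set_option linter.dupNamespace false
universe u

open CategoryTheory CategoryTheory.Limits AlgebraicGeometry Opposite TopologicalSpace

namespace Groth.Agent.Ega2.H284.FreeSurjT

open Groth.Agent.Ega2.H303.SubModel Groth.Agent.Ega2.H303.FibRep
open Groth.Agent.Ega2.H275.FrameNorm Groth.Agent.Ega2.H284.FreeSurj

variable {X₁ X : Scheme.{u}} {g : X₁ ⟶ X} {n : ℕ} [IsFinite g]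

theorem exists_surjective_ev_of_isFinLocFree (h : Unif g n) (x : X) (T : X.Opens) (hxT : x ∈ T)
    (hfree : FlatMod.IsFinLocFree (((Coh.push g).obj (Coh.structureModule X₁)).restrict T.ι)) :
    ∃ U : X.AffineZariskiSite, x ∈ U.toOpens ∧ U.toOpens ≤ T ∧ Function.Surjective ((sys h).ev U) := by
  obtain ⟨W, hWT, hxW, r, e, he⟩ := H286.FreeCp.exists_isB g hxT hfree
  exact exists_surjective_ev_of_fr h x T hxT hxW ⟨e, fun V hV => he V hV⟩

end Groth.Agent.Ega2.H284.FreeSurjT
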