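import Mathlib.RingTheory.MvPolynomial.Homogeneous
import Mathlib.LinearAlgebra.Matrix.Determinant.Basic
import Mathlib.LinearAlgebra.Matrix.Charpoly.Univ
import Mathlib.RingTheory.Localization.Away.Basic

/-!
# Norm laws given by a matrix representation

`R` a ring, `B`, `Q` `R`-algebras, `M : B →ₐ[R] Matrix (Fin n) (Fin n) Q`.  For a finite family `b` in `B`,
`P M b = det (∑ X_i M(b_i))`.  `alg M` is the `R`-subalgebra of `Q` whose elements are the `R`-linear combinations of
coefficients of the polynomials `P M b`.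
-/

set_option autoImplicit false

namespace Groth.Agent.Ega2.H284.NormLaw

open MvPolynomial

section Coefs

variable {R Q : Type*} [CommRing R] [CommRing Q] [Algebra R Q] (S : Submodule R Q)

/-- All coefficients lie in the submodule `S`. -/
def HasCoefs {σ : Type*} (f : MvPolynomial σ Q) : Prop := ∀ m, coeff m f ∈ S

variable {S}

lemma HasCoefs.zero {σ : Type*} : HasCoefs S (0 : MvPolynomial σ Q) := fun m => by
  rw [coeff_zero]; exact S.zero_mem

lemma HasCoefs.add {σ : Type*} {f g : MvPolynomial σ Q} (hf : HasCoefs S f) (hg : HasCoefs S g) :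
    HasCoefs S (f + g) := fun m => by
  rw [coeff_add]; exact S.add_mem (hf m) (hg m)

lemma HasCoefs.sum {σ ι : Type*} (s : Finset ι) {f : ι → MvPolynomial σ Q} (hf : ∀ i ∈ s, HasCoefs S (f i)) :
    HasCoefs S (∑ i ∈ s, f i) := fun m => by
  rw [coeff_sum]; exact S.sum_mem fun i hi => hf i hi m

lemma HasCoefs.C_mul_map {σ : Type*} {c : Q} (hc : c ∈ S) (g : MvPolynomial σ R) :
    HasCoefs S (C c * map (algebraMap R Q) g) := fun m => by
  rw [coeff_C_mul, coeff_map, mul_comm, ← Algebra.smul_def]
  exact S.smul_mem _ hc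

/-- Substituting polynomials with coefficients in `R` preserves `HasCoefs`. -/
lemma HasCoefs.subst {σ τ : Type*} {f : MvPolynomial σ Q} (hf : HasCoefs S f) (g : σ → MvPolynomial τ R) :
    HasCoefs S (aeval (fun i => map (algebraMap R Q) (g i)) f) := by
  have h1 : aeval (fun i => map (algebraMap R Q) (g i)) f =
      ∑ m ∈ f.support, C (coeff m f) * map (algebraMap R Q) (m.prod fun i k => g i ^ k) := by
    conv_lhs => rw [f.as_sum, map_sum]
    refine Finset.sum_congr rfl fun m _ => ?_
    rw [aeval_monomial, algebraMap_eq, Finsupp.prod, Finsupp.prod, map_prod]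
    simp only [map_pow]
  rw [h1]
  exact HasCoefs.sum _ fun m _ => HasCoefs.C_mul_map (hf m) _

end Coefs

section Law

variable {R B Q : Type*} [CommRing R] [CommRing B] [CommRing Q] [Algebra R B] [Algebra R Q] {n : ℕ}
  (M : B →ₐ[R] Matrix (Fin n) (Fin n) Q)

/-- The generic determinant `det (∑ X_i M(b_i))`. -/
noncomputable def P {ι : Type*} [Fintype ι] (b : ι → B) : MvPolynomial ι Q :=
  Matrix.det (∑ i, (X i : MvPolynomial ι Q) • (M (b i)).map (C : Q →+* MvPolynomial ι Q))

lemma isHomogeneous_P {ι : Type*} [Fintype ι] (b : ι → B) : (P M b).IsHomogeneous n := by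
  classical
  rw [P, Matrix.det_apply']
  refine IsHomogeneous.sum _ _ _ fun σ _ => ?_
  have h2 : (((Equiv.Perm.sign σ : ℤ) : MvPolynomial ι Q)).IsHomogeneous 0 := by
    have := isHomogeneous_C ι ((Equiv.Perm.sign σ : ℤ) : Q)
    rwa [map_intCast] at this
  have h3 : (∏ i : Fin n, (∑ j, (X j : MvPolynomial ι Q) • (M (b j)).map (C : Q →+* MvPolynomial ι Q)) (σ i) i).IsHomogeneous
      (∑ _i : Fin n, 1) := by
    refine IsHomogeneous.prod _ _ _ fun i _ => ?_
    rw [Matrix.sum_apply]
    refine IsHomogeneous.sum _ _ _ fun j _ => ?_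
    rw [Matrix.smul_apply, Matrix.map_apply, smul_eq_mul, mul_comm]
    exact isHomogeneous_C_mul_X _ _
  have h4 := h2.mul h3
  simpa using h4

lemma aeval_P {ι : Type*} [Fintype ι] (b : ι → B) {S : Type*} [CommRing S] [Algebra Q S] (a : ι → S) :
    aeval a (P M b) = Matrix.det (∑ i, a i • (M (b i)).map (algebraMap Q S)) := by
  classical
  rw [P, AlgHom.map_det]
  congr 1
  ext i j
  rw [AlgHom.mapMatrix_apply, Matrix.map_apply, Matrix.sum_apply, Matrix.sum_apply, map_sum]
  refine Finset.sum_congr rfl fun k _ => ?_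
  rw [Matrix.smul_apply, Matrix.smul_apply, Matrix.map_apply, Matrix.map_apply, smul_eq_mul, smul_eq_mul,
    map_mul, aeval_X, ← algebraMap_eq, AlgHom.commutes]

lemma eval_P {ι : Type*} [Fintype ι] (b : ι → B) (a : ι → R) :
    aeval (fun i => algebraMap R Q (a i)) (P M b) = Matrix.det (M (∑ i, a i • b i)) := by
  rw [aeval_P, map_sum]
  congr 1
  refine Finset.sum_congr rfl fun k _ => ?_
  rw [map_smul]
  ext i j
  simp [Algebra.smul_def]

/-- The polynomials of two families related by a substitution. -/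
lemma P_subst {ι κ : Type*} [Fintype ι] [Fintype κ] (e : κ → B) (b : ι → B) (c : ι → κ → R)
    (h : ∀ i, b i = ∑ k, c i k • e k) :
    P M b = aeval (fun k => map (algebraMap R Q) (∑ i, C (c i k) * X i : MvPolynomial ι R)) (P M e) := by
  rw [aeval_P, P]
  congr 1
  have h1 : ∀ i, M (b i) = ∑ k, c i k • M (e k) := fun i => by rw [h, map_sum]; simp only [map_smul]
  ext1 i j
  rw [Matrix.sum_apply, Matrix.sum_apply]
  have h2 : ∀ k : ι, ((X k : MvPolynomial ι Q) • (M (b k)).map (C : Q →+* MvPolynomial ι Q)) i j =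
      ∑ l, X k * (C (algebraMap R Q (c k l)) * C (M (e l) i j)) := by
    intro k
    rw [Matrix.smul_apply, Matrix.map_apply, smul_eq_mul, h1, Matrix.sum_apply, map_sum, Finset.mul_sum]
    refine Finset.sum_congr rfl fun l _ => ?_
    rw [Matrix.smul_apply, Algebra.smul_def, map_mul]
  have h3 : ∀ l : κ, ((map (algebraMap R Q) (∑ i, C (c i l) * X i : MvPolynomial ι R)) •
      (M (e l)).map (algebraMap Q (MvPolynomial ι Q))) i j =
      ∑ k, X k * (C (algebraMap R Q (c k l)) * C (M (e l) i j)) := by
    intro l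
    rw [Matrix.smul_apply, Matrix.map_apply, smul_eq_mul, map_sum, Finset.sum_mul]
    refine Finset.sum_congr rfl fun k _ => ?_
    rw [map_mul, map_C, map_X, algebraMap_eq]
    ring
  rw [Finset.sum_congr rfl fun k _ => h2 k, Finset.sum_congr rfl fun l _ => h3 l, Finset.sum_comm]

/-- The set of coefficients of all generic determinants. -/
def coefSet : Set Q := {q | ∃ (r : ℕ) (b : Fin r → B) (m : Fin r →₀ ℕ), q = coeff m (P M b)}

/-- The `R`-span of the coefficients. -/
def coefSpan : Submodule R Q := Submodule.span R (coefSet M)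

lemma P_reindex {ι κ : Type*} [Fintype ι] [Fintype κ] (e : ι ≃ κ) (b : κ → B) :
    P M (b ∘ e) = rename e.symm (P M b) := by
  rw [rename_eq_aeval, aeval_P, P]
  congr 1
  rw [← Equiv.sum_comp e]
  refine Finset.sum_congr rfl fun i _ => ?_
  simp [algebraMap_eq]

lemma hasCoefs_P {ι : Type*} [Fintype ι] (b : ι → B) : HasCoefs (coefSpan M) (P M b) := by
  classical
  intro m
  let e : Fin (Fintype.card ι) ≃ ι := (Fintype.equivFin ι).symm
  have h := P_reindex M e b
  have h2 : coeff (m.mapDomain e.symm) (P M (b ∘ e)) = coeff m (P M b) := by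
    rw [h, coeff_rename_mapDomain _ e.symm.injective]
  rw [← h2]
  exact Submodule.subset_span ⟨_, _, _, rfl⟩

lemma one_mem_coefSpan : (1 : Q) ∈ coefSpan M := by
  classical
  have h : P M (fun _ : Fin 1 => (1 : B)) = X 0 ^ n := by
    rw [P]
    have h1 : (∑ i : Fin 1, (X i : MvPolynomial (Fin 1) Q) • (M (1 : B)).map (C : Q →+* MvPolynomial (Fin 1) Q)) =
        (X 0 : MvPolynomial (Fin 1) Q) • (1 : Matrix (Fin n) (Fin n) (MvPolynomial (Fin 1) Q)) := by
      rw [map_one, Fin.sum_univ_one]
      congr 1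
      exact Matrix.map_one _ (map_zero _) (map_one _)
    rw [h1, Matrix.det_smul, Matrix.det_one, mul_one, Fintype.card_fin]
  have h2 := hasCoefs_P M (fun _ : Fin 1 => (1 : B)) (Finsupp.single 0 n)
  rw [h, coeff_X_pow, if_pos rfl] at h2
  exact h2

lemma mul_mem_coefSpan {x y : Q} (hx : x ∈ coefSpan M) (hy : y ∈ coefSpan M) : x * y ∈ coefSpan M := by
  classical
  have key : ∀ x ∈ coefSet M, ∀ y ∈ coefSet M, x * y ∈ coefSpan M := by
    rintro _ ⟨r, b, m, rfl⟩ _ ⟨s, b', m', rfl⟩
    let bb : Fin r × Fin s → B := fun p => b p.1 * b' p.2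
    have h1 : rename (Sum.inl : Fin r → Fin r ⊕ Fin s) (P M b) * rename (Sum.inr : Fin s → Fin r ⊕ Fin s) (P M b') =
        aeval (fun p : Fin r × Fin s => map (algebraMap R Q) (X (Sum.inl p.1) * X (Sum.inr p.2))) (P M bb) := by
      rw [rename_eq_aeval, rename_eq_aeval, aeval_P, aeval_P, aeval_P, ← Matrix.det_mul, Finset.sum_mul]
      congr 1
      rw [Fintype.sum_prod_type]
      refine Finset.sum_congr rfl fun i _ => ?_
      rw [Finset.mul_sum]
      refine Finset.sum_congr rfl fun j _ => ?_
      simp only [bb, map_mul, map_X, Function.comp_apply, Matrix.smul_mul, Matrix.mul_smul, smul_smul, Matrix.map_mul]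
      rw [mul_comm (X (Sum.inr j)) (X (Sum.inl i))]
    have h2 : HasCoefs (coefSpan M) (rename (Sum.inl : Fin r → Fin r ⊕ Fin s) (P M b) *
        rename (Sum.inr : Fin s → Fin r ⊕ Fin s) (P M b')) := by
      rw [h1]; exact (hasCoefs_P M bb).subst _
    have h3 := h2 (m.mapDomain Sum.inl + m'.mapDomain Sum.inr)
    have h4 : coeff (m.mapDomain Sum.inl + m'.mapDomain Sum.inr) (rename (Sum.inl : Fin r → Fin r ⊕ Fin s) (P M b) *
        rename (Sum.inr : Fin s → Fin r ⊕ Fin s) (P M b')) = coeff m (P M b) * coeff m' (P M b') := by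
      rw [coeff_mul, Finset.sum_eq_single (m.mapDomain Sum.inl, m'.mapDomain Sum.inr)]
      · rw [coeff_rename_mapDomain _ Sum.inl_injective, coeff_rename_mapDomain _ Sum.inr_injective]
      · rintro ⟨u, v⟩ huv hne
        rw [Finset.mem_antidiagonal] at huv
        simp only at huv ⊢
        by_contra hprod
        apply hne
        have hu : coeff u (rename (Sum.inl : Fin r → Fin r ⊕ Fin s) (P M b)) ≠ 0 := left_ne_zero_of_mul hprod
        have hv : coeff v (rename (Sum.inr : Fin s → Fin r ⊕ Fin s) (P M b')) ≠ 0 := right_ne_zero_of_mul hprod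
        obtain ⟨u', rfl, -⟩ := coeff_rename_ne_zero _ _ _ hu
        obtain ⟨v', rfl, -⟩ := coeff_rename_ne_zero _ _ _ hv
        have e1 : u' = m := by
          ext i
          have := DFunLike.congr_fun huv (Sum.inl i)
          simpa [Finsupp.mapDomain_apply Sum.inl_injective, Finsupp.mapDomain_of_notMem_range] using this
        have e2 : v' = m' := by
          ext i
          have := DFunLike.congr_fun huv (Sum.inr i)
          simpa [Finsupp.mapDomain_apply Sum.inr_injective, Finsupp.mapDomain_of_notMem_range] using this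
        rw [e1, e2]
      · intro h
        exfalso
        apply h
        rw [Finset.mem_antidiagonal]
    rw [h4] at h3
    exact h3
  refine Submodule.span_induction₂ (p := fun x y _ _ => x * y ∈ coefSpan M) (fun x y hx hy => key x hx y hy)
    ?_ ?_ ?_ ?_ ?_ ?_ hx hy
  · intro y _; rw [zero_mul]; exact Submodule.zero_mem _
  · intro y _; rw [mul_zero]; exact Submodule.zero_mem _
  · intro x y z _ _ _ h1 h2; rw [add_mul]; exact Submodule.add_mem _ h1 h2
  · intro x y z _ _ _ h1 h2; rw [mul_add]; exact Submodule.add_mem _ h1 h2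
  · intro r x y _ _ h; rw [smul_mul_assoc]; exact Submodule.smul_mem _ _ h
  · intro r x y _ _ h; rw [mul_smul_comm]; exact Submodule.smul_mem _ _ h

/-- The algebra of coefficients. -/
def alg : Subalgebra R Q where
  carrier := coefSpan M
  mul_mem' := mul_mem_coefSpan M
  add_mem' := (coefSpan M).add_mem
  algebraMap_mem' r := by
    rw [Algebra.algebraMap_eq_smul_one]
    exact (coefSpan M).smul_mem _ (one_mem_coefSpan M)

lemma mem_alg {x : Q} : x ∈ alg M ↔ x ∈ coefSpan M := Iff.rfl

lemma coeff_mem_alg {ι : Type*} [Fintype ι] (b : ι → B) (m : ι →₀ ℕ) : coeff m (P M b) ∈ alg M := hasCoefs_P M b m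

/-- The span of the coefficients is computed by one generating family. -/
lemma coefSpan_eq {κ : Type*} [Fintype κ] (e : κ → B) (he : Submodule.span R (Set.range e) = ⊤) :
    coefSpan M = Submodule.span R (Set.range fun m : κ →₀ ℕ => coeff m (P M e)) := by
  apply le_antisymm
  · apply Submodule.span_le.2
    rintro _ ⟨r, b, m, rfl⟩
    have h1 : ∀ i, ∃ c : κ → R, ∑ k, c k • e k = b i := fun i =>
      (Submodule.mem_span_range_iff_exists_fun R).1 (he ▸ Submodule.mem_top)
    choose c hc using h1
    rw [P_subst M e b c (fun i => (hc i).symm)]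
    have h2 : HasCoefs (Submodule.span R (Set.range fun m : κ →₀ ℕ => coeff m (P M e))) (P M e) :=
      fun m => Submodule.subset_span ⟨m, rfl⟩
    exact h2.subst _ m
  · apply Submodule.span_le.2
    rintro _ ⟨m, rfl⟩
    exact hasCoefs_P M e m

lemma fg_coefSpan [Module.Finite R B] : (coefSpan M).FG := by
  classical
  obtain ⟨r, e, he⟩ := Module.Finite.exists_fin (R := R) (M := B)
  rw [coefSpan_eq M e he]
  refine ⟨(P M e).support.image fun m => coeff m (P M e), ?_⟩
  apply le_antisymm
  · apply Submodule.span_mono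
    intro x hx
    rw [Finset.coe_image] at hx
    obtain ⟨m, _, rfl⟩ := hx
    exact ⟨m, rfl⟩
  · apply Submodule.span_le.2
    rintro _ ⟨m, rfl⟩
    by_cases hm : m ∈ (P M e).support
    · exact Submodule.subset_span (Finset.mem_coe.2 (Finset.mem_image_of_mem _ hm))
    · have : coeff m (P M e) = 0 := notMem_support_iff.1 hm
      change coeff m (P M e) ∈ _
      rw [this]
      exact Submodule.zero_mem _

instance finite_alg [Module.Finite R B] : Module.Finite R (alg M) :=
  Module.Finite.iff_fg.2 (show (Subalgebra.toSubmodule (alg M)).FG from fg_coefSpan M)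

lemma det_mem_alg (b : B) : (M b).det ∈ alg M := by
  have h := eval_P M (fun _ : Fin 1 => b) (fun _ => 1)
  simp only [one_smul, Fin.sum_univ_one] at h
  rw [← h, aeval_def, eval₂_eq]
  refine Subalgebra.sum_mem _ fun m _ => ?_
  refine Subalgebra.mul_mem _ (coeff_mem_alg M _ m) ?_
  simp only [map_one, one_pow, Finset.prod_const_one]
  exact Subalgebra.one_mem _

/-- The norm law with values in the algebra of coefficients. -/
noncomputable def norm : B →* alg M where
  toFun b := ⟨(M b).det, det_mem_alg M b⟩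
  map_one' := Subtype.ext (by simp)
  map_mul' x y := Subtype.ext (by simp [Matrix.det_mul])

@[simp] lemma coe_norm (b : B) : (norm M b : Q) = (M b).det := rfl

lemma norm_algebraMap (a : R) : norm M (algebraMap R B a) = (algebraMap R (alg M) a) ^ n := by
  apply Subtype.ext
  rw [coe_norm, AlgHom.commutes, SubmonoidClass.coe_pow, Matrix.algebraMap_eq_diagonal]
  rw [Matrix.det_diagonal]
  simp only [Pi.algebraMap_apply, Finset.prod_const, Finset.card_univ, Fintype.card_fin]
  rfl

/-- If `b ∈ pB` then `N(b) ∈ pC` (positive degree). -/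
lemma norm_mem_map (hn : 0 < n) (p : Ideal R) {b : B} (hb : b ∈ p.map (algebraMap R B)) :
    norm M b ∈ p.map (algebraMap R (alg M)) := by
  classical
  have h1 : b ∈ p • (⊤ : Submodule R B) := by
    rw [Ideal.smul_top_eq_map]
    exact hb
  -- b is a finite combination
  obtain ⟨s, f, c, hc, rfl⟩ : ∃ (s : ℕ) (f : Fin s → B) (c : Fin s → R), (∀ i, c i ∈ p) ∧ b = ∑ i, c i • f i := by
    refine Submodule.smul_induction_on h1 ?_ ?_
    · intro r hr x _
      exact ⟨1, fun _ => x, fun _ => r, fun _ => hr, by simp⟩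
    · rintro x y ⟨s, f, c, hc, rfl⟩ ⟨s', f', c', hc', rfl⟩
      refine ⟨s + s', Fin.append f f', Fin.append c c', ?_, ?_⟩
      · intro i
        refine Fin.addCases (fun i => ?_) (fun i => ?_) i
        · rw [Fin.append_left]; exact hc i
        · rw [Fin.append_right]; exact hc' i
      · rw [Fin.sum_univ_add]
        simp
  have h2 := eval_P M f c
  have h3 : norm M (∑ i, c i • f i) =
      ∑ m ∈ (P M f).support, (⟨coeff m (P M f), coeff_mem_alg M f m⟩ : alg M) *
        ∏ i ∈ m.support, (algebraMap R (alg M) (c i)) ^ m i := by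
    apply Subtype.ext
    rw [coe_norm, ← h2, aeval_def, eval₂_eq]
    simp only [AddSubmonoidClass.coe_finsetSum, MulMemClass.coe_mul, SubmonoidClass.coe_finsetProd,
      SubmonoidClass.coe_pow]
    rfl
  rw [h3]
  refine Ideal.sum_mem _ fun m hm => Ideal.mul_mem_left _ _ ?_
  have h4 : m.degree = n := by
    have := isHomogeneous_P M f (mem_support_iff.1 hm)
    rw [Finsupp.degree_eq_weight_one]
    exact this
  have h5 : ∃ i, i ∈ m.support := by
    by_contra! hcon
    have : m = 0 := by
      ext i
      simpa using hcon i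
    rw [this, map_zero] at h4
    omega
  obtain ⟨i, hi⟩ := h5
  refine Ideal.mem_of_dvd _ (Finset.dvd_prod_of_mem _ hi) ?_
  have h6 : m i ≠ 0 := Finsupp.mem_support_iff.1 hi
  exact Ideal.pow_mem_of_mem _ (Ideal.mem_map_of_mem _ (hc i)) _ (Nat.pos_of_ne_zero h6)

/-- If `b` lies in all primes of `B` over `p` then `N(b)` lies in all primes of `C` containing `p`
(`q` prime of `C` with `p ≤ q ∩ R`). -/
lemma norm_mem_of_forall (hn : 0 < n) (p : Ideal R) {b : B}
    (hb : ∃ k : ℕ, b ^ k ∈ p.map (algebraMap R B)) (q : Ideal (alg M)) [q.IsPrime]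
    (hq : p ≤ q.comap (algebraMap R (alg M))) : norm M b ∈ q := by
  obtain ⟨k, hk⟩ := hb
  have h := norm_mem_map M hn p hk
  rw [map_pow] at h
  exact Ideal.IsPrime.mem_of_pow_mem inferInstance k (Ideal.map_le_iff_le_comap.2 hq h)

end Law

end Groth.Agent.Ega2.H284.NormLaw
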