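import Groth.Agent.Ega2.H284.NormLaw
import Mathlib.LinearAlgebra.Matrix.Block
import Mathlib.RingTheory.Norm.Basic
import Mathlib.RingTheory.Localization.AtPrime.Basic
import Mathlib.RingTheory.IntegralClosure.IntegrallyClosed

/-!
# Norm laws: functoriality, localization, products, multiples of the regular representation
-/

set_option autoImplicit false

namespace Groth.Agent.Ega2.H284.NormLawLoc

open MvPolynomial Groth.Agent.Ega2.H284.NormLaw

section Functoriality

variable {R B Q R' B' Q' : Type*} [CommRing R] [CommRing B] [CommRing Q] [Algebra R B] [Algebra R Q]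
  [CommRing R'] [CommRing B'] [CommRing Q'] [Algebra R' B'] [Algebra R' Q'] {n : ℕ}
  (M : B →ₐ[R] Matrix (Fin n) (Fin n) Q) (M' : B' →ₐ[R'] Matrix (Fin n) (Fin n) Q')
  (φ : R →+* R') (ψ : B →+* B') (χ : Q →+* Q')

lemma P_map (hM : ∀ b, M' (ψ b) = (M b).map χ) {ι : Type*} [Fintype ι] (b : ι → B) :
    P M' (ψ ∘ b) = map χ (P M b) := by
  rw [P, P, RingHom.map_det]
  congr 1
  ext1 i j
  rw [RingHom.mapMatrix_apply, Matrix.map_apply, Matrix.sum_apply, Matrix.sum_apply, map_sum]
  refine Finset.sum_congr rfl fun k _ => ?_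
  rw [Matrix.smul_apply, Matrix.smul_apply, Matrix.map_apply, Matrix.map_apply, smul_eq_mul, smul_eq_mul, map_mul,
    map_X, map_C, Function.comp_apply, hM, Matrix.map_apply]

lemma map_mem_alg (hQ : ∀ a, χ (algebraMap R Q a) = algebraMap R' Q' (φ a))
    (hM : ∀ b, M' (ψ b) = (M b).map χ) {x : Q} (hx : x ∈ alg M) : χ x ∈ alg M' := by
  have h1 : x ∈ Submodule.span R (coefSet M) := hx
  induction h1 using Submodule.span_induction with
  | mem x h =>
    obtain ⟨r, b, m, rfl⟩ := h
    have := coeff_mem_alg M' (ψ ∘ b) m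
    rwa [P_map M M' ψ χ hM, coeff_map] at this
  | zero => rw [map_zero]; exact Subalgebra.zero_mem _
  | add x y hx' hy' h1 h2 => rw [map_add]; exact Subalgebra.add_mem _ (h1 hx') (h2 hy')
  | smul r x hx' h =>
    rw [Algebra.smul_def, map_mul, hQ, ← Algebra.smul_def]
    exact Subalgebra.smul_mem _ (h hx') _

/-- The polynomial of a family multiplied by a scalar. -/
lemma P_smul {ι : Type*} [Fintype ι] (a : R) (b : ι → B) :
    P M (fun i => a • b i) = C (algebraMap R Q a ^ n) * P M b := by
  rw [P, P]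
  have h : (∑ i, (X i : MvPolynomial ι Q) • (M (a • b i)).map (C : Q →+* MvPolynomial ι Q)) =
      (C (algebraMap R Q a) : MvPolynomial ι Q) • ∑ i, (X i : MvPolynomial ι Q) • (M (b i)).map
        (C : Q →+* MvPolynomial ι Q) := by
    rw [Finset.smul_sum]
    refine Finset.sum_congr rfl fun k _ => ?_
    ext1 i j
    have h0 : M (a • b k) i j = algebraMap R Q a * M (b k) i j := by
      rw [map_smul, Matrix.smul_apply, Algebra.smul_def]
    rw [Matrix.smul_apply, Matrix.smul_apply, Matrix.smul_apply, Matrix.map_apply, Matrix.map_apply, h0, map_mul,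
      smul_eq_mul, smul_eq_mul, smul_eq_mul]
    ring
  rw [h, Matrix.det_smul, Fintype.card_fin, map_pow]

/-- Localization: elements of `alg M'` become elements of `alg M` after multiplication by a power of `f`. -/
lemma exists_of_mem_alg (f : R) (hQ : ∀ a, χ (algebraMap R Q a) = algebraMap R' Q' (φ a))
    (hM : ∀ b, M' (ψ b) = (M b).map χ)
    (hR : ∀ a' : R', ∃ (k : ℕ) (a : R), φ f ^ k * a' = φ a)
    (hB : ∀ b' : B', ∃ (k : ℕ) (b : B), φ f ^ k • b' = ψ b)
    (hψ : ∀ a, ψ (algebraMap R B a) = algebraMap R' B' (φ a))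
    {x : Q'} (hx : x ∈ alg M') : ∃ (k : ℕ) (y : Q), y ∈ alg M ∧ χ y = φ f ^ k • x := by
  have h1 : x ∈ Submodule.span R' (coefSet M') := hx
  induction h1 using Submodule.span_induction with
  | mem x h =>
    obtain ⟨r, b', m, rfl⟩ := h
    choose k b hb using fun i => hB (b' i)
    let K := ∑ i, k i
    have h2 : ∀ i, φ f ^ K • b' i = ψ (f ^ (K - k i) • b i) := fun i => by
      have hle : k i ≤ K := Finset.single_le_sum (f := k) (fun _ _ => Nat.zero_le _) (Finset.mem_univ i)
      rw [Algebra.smul_def (f ^ (K - k i)), map_mul, hψ, ← hb, map_pow, ← Algebra.smul_def, smul_smul, ← pow_add,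
        Nat.sub_add_cancel hle]
    refine ⟨K * n, coeff m (P M fun i => f ^ (K - k i) • b i), coeff_mem_alg M _ _, ?_⟩
    rw [← coeff_map, ← P_map M M' ψ χ hM]
    have h3 : (ψ ∘ fun i => f ^ (K - k i) • b i) = fun i => φ f ^ K • b' i := funext fun i => (h2 i).symm
    rw [h3, P_smul, coeff_C_mul, map_pow, ← pow_mul, ← map_pow, ← Algebra.smul_def]
  | zero => exact ⟨0, 0, Subalgebra.zero_mem _, by simp⟩
  | add x y hx' hy' h1 h2 =>
    obtain ⟨k, a, ha, hk⟩ := h1 hx'
    obtain ⟨l, c, hc, hl⟩ := h2 hy'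
    refine ⟨k + l, f ^ l • a + f ^ k • c, Subalgebra.add_mem _ (Subalgebra.smul_mem _ ha _)
      (Subalgebra.smul_mem _ hc _), ?_⟩
    have e1 : χ (f ^ l • a) = φ f ^ (k + l) • x := by
      rw [Algebra.smul_def, map_mul, hQ, hk, ← Algebra.smul_def, smul_smul, map_pow, ← pow_add, add_comm l k]
    have e2 : χ (f ^ k • c) = φ f ^ (k + l) • y := by
      rw [Algebra.smul_def, map_mul, hQ, hl, ← Algebra.smul_def, smul_smul, map_pow, ← pow_add]
    rw [map_add, e1, e2, smul_add]
  | smul r x hx' h =>
    obtain ⟨k, a, ha, hk⟩ := h hx'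
    obtain ⟨l, s, hs⟩ := hR r
    refine ⟨k + l, s • a, Subalgebra.smul_mem _ ha _, ?_⟩
    rw [Algebra.smul_def s, map_mul, hQ, ← hs, hk, ← Algebra.smul_def, smul_smul, smul_smul]
    congr 1
    ring

end Functoriality

section Pi

variable {R B : Type*} [CommRing R] [CommRing B] [Algebra R B] {J : Type*} {K : J → Type*}
  [∀ j, CommRing (K j)] [∀ j, Algebra R (K j)] {n : ℕ} (M : ∀ j, B →ₐ[R] Matrix (Fin n) (Fin n) (K j))

/-- The product of matrix representations. -/
def piRep : B →ₐ[R] Matrix (Fin n) (Fin n) (∀ j, K j) where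
  toFun b := Matrix.of fun i k j => M j b i k
  map_one' := by
    ext i k j
    rw [Matrix.of_apply, map_one, Matrix.one_apply, Matrix.one_apply]
    split_ifs <;> rfl
  map_mul' x y := by
    ext i k j
    rw [Matrix.of_apply, map_mul, Matrix.mul_apply, Matrix.mul_apply, Finset.sum_apply]
    rfl
  map_zero' := by
    ext i k j
    rw [Matrix.of_apply, map_zero]
    rfl
  map_add' x y := by
    ext i k j
    rw [Matrix.of_apply, map_add]
    rfl
  commutes' r := by
    ext i k j
    rw [Matrix.of_apply, AlgHom.commutes, Matrix.algebraMap_matrix_apply, Matrix.algebraMap_matrix_apply]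
    split_ifs <;> rfl

lemma piRep_map (j : J) (b : B) : (piRep M b).map (Pi.evalRingHom K j) = M j b := rfl

lemma P_piRep (j : J) {ι : Type*} [Fintype ι] (b : ι → B) :
    map (Pi.evalRingHom K j) (P (piRep M) b) = P (M j) b :=
  (P_map (piRep M) (M j) (RingHom.id B) (Pi.evalRingHom K j) (fun b => (piRep_map M j b).symm) b).symm

lemma coeff_piRep (j : J) {ι : Type*} [Fintype ι] (b : ι → B) (m : ι →₀ ℕ) :
    coeff m (P (piRep M) b) j = coeff m (P (M j) b) := by
  rw [← P_piRep M j, coeff_map]
  rfl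

lemma eval_mem_alg (j : J) {x : ∀ j, K j} (hx : x ∈ alg (piRep M)) : x j ∈ alg (M j) :=
  map_mem_alg (piRep M) (M j) (RingHom.id R) (RingHom.id B) (Pi.evalRingHom K j) (fun _ => rfl)
    (fun b => (piRep_map M j b).symm) hx

end Pi

section Rep

variable {K L : Type*} [CommRing K] [CommRing L] [Algebra K L] {d m n : ℕ}

/-- Block diagonal matrices with `m` equal blocks. -/
noncomputable def blockHom (K : Type*) [CommRing K] (d m : ℕ) :
    Matrix (Fin d) (Fin d) K →ₐ[K] Matrix (Fin d × Fin m) (Fin d × Fin m) K where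
  toFun := fun A => Matrix.blockDiagonal fun _ : Fin m => A
  map_one' := Matrix.blockDiagonal_one
  map_mul' := fun A A' => Matrix.blockDiagonal_mul _ _
  map_zero' := Matrix.blockDiagonal_zero
  map_add' := fun A A' => Matrix.blockDiagonal_add _ _
  commutes' := fun r => by
    ext ⟨i, k⟩ ⟨j, l⟩
    rw [Matrix.blockDiagonal_apply, Matrix.algebraMap_matrix_apply, Matrix.algebraMap_matrix_apply]
    by_cases hk : k = l <;> by_cases hi : i = j <;> simp [hk, hi]

/-- `m` copies of the regular representation, as matrices of size `n = d * m`. -/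
noncomputable def rep (β : Module.Basis (Fin d) K L) (h : d * m = n) : L →ₐ[K] Matrix (Fin n) (Fin n) K :=
  (Matrix.reindexAlgEquiv K K (finProdFinEquiv.trans (finCongr h))).toAlgHom.comp
    ((blockHom K d m).comp (Algebra.leftMulMatrix β))

lemma rep_apply (β : Module.Basis (Fin d) K L) (h : d * m = n) (b : L) :
    rep β h b = (Matrix.blockDiagonal fun _ : Fin m => Algebra.leftMulMatrix β b).reindex
      (finProdFinEquiv.trans (finCongr h)) (finProdFinEquiv.trans (finCongr h)) := rfl

/-- The generic determinant for the regular representation. -/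
noncomputable def PReg (β : Module.Basis (Fin d) K L) {ι : Type*} [Fintype ι] (b : ι → L) : MvPolynomial ι K :=
  Matrix.det (∑ i, (X i : MvPolynomial ι K) • (Algebra.leftMulMatrix β (b i)).map (C : K →+* MvPolynomial ι K))

lemma P_rep (β : Module.Basis (Fin d) K L) (h : d * m = n) {ι : Type*} [Fintype ι] (b : ι → L) :
    P (rep β h) b = PReg β b ^ m := by
  classical
  have h1 : (∑ i, (X i : MvPolynomial ι K) • (rep β h (b i)).map (C : K →+* MvPolynomial ι K)) =
      (Matrix.blockDiagonal fun _ : Fin m => ∑ i, (X i : MvPolynomial ι K) • (Algebra.leftMulMatrix β (b i)).map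
        (C : K →+* MvPolynomial ι K)).reindex
      (finProdFinEquiv.trans (finCongr h)) (finProdFinEquiv.trans (finCongr h)) := by
    ext1 i j
    rw [Matrix.sum_apply, Matrix.reindex_apply, Matrix.submatrix_apply, Matrix.blockDiagonal_apply]
    simp only [Matrix.smul_apply, Matrix.map_apply, rep_apply, Matrix.reindex_apply, Matrix.submatrix_apply,
      Matrix.blockDiagonal_apply, smul_eq_mul]
    split_ifs with hh
    · rw [Matrix.sum_apply]
      rfl
    · simp
  rw [P, h1, Matrix.det_reindex_self, Matrix.det_blockDiagonal, Finset.prod_const, Finset.card_univ, Fintype.card_fin]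
  rfl

lemma det_rep (β : Module.Basis (Fin d) K L) (h : d * m = n) (b : L) :
    (rep β h b).det = Algebra.norm K b ^ m := by
  rw [rep_apply, Matrix.det_reindex_self, Matrix.det_blockDiagonal, Finset.prod_const, Finset.card_univ,
    Fintype.card_fin, Algebra.norm_eq_matrix_det β]

/-- Independence of the basis. -/
lemma PReg_eq (β β' : Module.Basis (Fin d) K L) {ι : Type*} [Fintype ι] (b : ι → L) : PReg β b = PReg β' b := by
  classical
  have h1 : ∀ x : L, Algebra.leftMulMatrix β' x = β'.toMatrix β * Algebra.leftMulMatrix β x * β.toMatrix β' := by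
    intro x
    rw [Algebra.leftMulMatrix_apply, Algebra.leftMulMatrix_apply]
    exact (basis_toMatrix_mul_linearMap_toMatrix_mul_basis_toMatrix β' β β' β _).symm
  have h2 : (∑ i, (X i : MvPolynomial ι K) • (Algebra.leftMulMatrix β' (b i)).map (C : K →+* MvPolynomial ι K)) =
      (β'.toMatrix β).map (C : K →+* MvPolynomial ι K) *
      (∑ i, (X i : MvPolynomial ι K) • (Algebra.leftMulMatrix β (b i)).map (C : K →+* MvPolynomial ι K)) *
      (β.toMatrix β').map (C : K →+* MvPolynomial ι K) := by
    rw [Finset.mul_sum, Finset.sum_mul]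
    refine Finset.sum_congr rfl fun i _ => ?_
    rw [h1, Matrix.map_mul, Matrix.map_mul, Matrix.mul_smul, Matrix.smul_mul]
  have h3 : (β'.toMatrix β).map (C : K →+* MvPolynomial ι K) * (β.toMatrix β').map (C : K →+* MvPolynomial ι K) = 1 := by
    rw [← Matrix.map_mul, Module.Basis.toMatrix_mul_toMatrix_flip, Matrix.map_one _ (map_zero _) (map_one _)]
  rw [PReg, PReg, h2, Matrix.det_mul, Matrix.det_mul, mul_right_comm, ← Matrix.det_mul, h3, Matrix.det_one, one_mul]

/-- Base change of the generic determinant of the regular representation. -/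
lemma PReg_map {K' L' : Type*} [CommRing K'] [CommRing L'] [Algebra K' L'] (β : Module.Basis (Fin d) K L)
    (β' : Module.Basis (Fin d) K' L') (φ : K →+* K') (ψ : L →+* L')
    (hφ : ∀ a, ψ (algebraMap K L a) = algebraMap K' L' (φ a)) (hβ : ∀ i, ψ (β i) = β' i)
    {ι : Type*} [Fintype ι] (b : ι → L) :
    map φ (PReg β b) = PReg β' (ψ ∘ b) := by
  classical
  have h1 : ∀ x : L, Algebra.leftMulMatrix β' (ψ x) = (Algebra.leftMulMatrix β x).map φ := by
    intro x
    ext i j
    rw [Matrix.map_apply, Algebra.leftMulMatrix_eq_repr_mul, Algebra.leftMulMatrix_eq_repr_mul, ← hβ, ← map_mul]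
    have h2 : ∀ y : L, β'.repr (ψ y) i = φ (β.repr y i) := by
      intro y
      conv_lhs => rw [← β.sum_repr y]
      rw [map_sum, map_sum]
      simp only [Algebra.smul_def, map_mul, hφ, hβ]
      simp only [← Algebra.smul_def, map_smul, Module.Basis.repr_self]
      simp [Finsupp.single_apply]
    exact h2 _
  rw [PReg, PReg, RingHom.map_det]
  congr 1
  ext1 i j
  rw [RingHom.mapMatrix_apply, Matrix.map_apply, Matrix.sum_apply, Matrix.sum_apply, map_sum]
  refine Finset.sum_congr rfl fun k _ => ?_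
  rw [Matrix.smul_apply, Matrix.smul_apply, Matrix.map_apply, Matrix.map_apply, smul_eq_mul, smul_eq_mul, map_mul,
    map_X, map_C, Function.comp_apply, h1, Matrix.map_apply]

end Rep

section Normal

/-- At a prime `p` such that `R_p` is an integrally closed domain with fraction field `K`: an integral element of `Q`
is, locally at `p`, in the image of `R`. -/
lemma exists_smul_eq_of_isIntegral {R Q K : Type*} [CommRing R] [CommRing Q] [Algebra R Q] [Field K]
    (p : Ideal R) [p.IsPrime] [IsDomain (Localization.AtPrime p)] [IsIntegrallyClosed (Localization.AtPrime p)]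
    [Algebra (Localization.AtPrime p) K] [IsFractionRing (Localization.AtPrime p) K]
    (ev : Q →+* K) (hev : ∀ a, ev (algebraMap R Q a) = algebraMap (Localization.AtPrime p) K (algebraMap R _ a))
    (hker : ∀ q, ev q = 0 → ∃ s : R, s ∉ p ∧ s • q = 0) (q : Q) (hq : IsIntegral R q) :
    ∃ s r : R, s ∉ p ∧ s • q = algebraMap R Q r := by
  let _ : Algebra R K := ((algebraMap (Localization.AtPrime p) K).comp (algebraMap R _)).toAlgebra
  have : IsScalarTower R (Localization.AtPrime p) K := IsScalarTower.of_algebraMap_eq' rfl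
  let ev' : Q →ₐ[R] K := { ev with commutes' := fun a => hev a }
  have h1 : IsIntegral R (ev' q) := hq.map ev'
  have h2 : IsIntegral (Localization.AtPrime p) (ev' q) := h1.tower_top
  obtain ⟨y, hy⟩ := IsIntegrallyClosed.isIntegral_iff.1 h2
  obtain ⟨⟨r, s⟩, hrs⟩ := IsLocalization.surj p.primeCompl y
  have h3 : ev (s.1 • q - algebraMap R Q r) = 0 := by
    rw [map_sub, Algebra.smul_def, map_mul, hev, hev]
    have h4 : algebraMap (Localization.AtPrime p) K y = ev q := hy
    rw [← h4, ← map_mul, mul_comm, hrs, sub_self]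
  obtain ⟨t, ht, ht'⟩ := hker _ h3
  refine ⟨t * s.1, t * r, fun h => ?_, ?_⟩
  · rcases Ideal.IsPrime.mem_or_mem inferInstance h with h | h
    · exact ht h
    · exact s.2 h
  · rw [smul_sub, sub_eq_zero, smul_smul] at ht'
    rw [ht', map_mul, Algebra.smul_def]

end Normal

section Free

/-- If `N` has coefficients of the generic determinants in the image of a ring `S → Q'`, so does `alg`. -/
lemma mem_range_of_coeff {R B Q : Type*} [CommRing R] [CommRing B] [CommRing Q] [Algebra R B] [Algebra R Q] {n : ℕ}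
    (M : B →ₐ[R] Matrix (Fin n) (Fin n) Q) (S : Subalgebra R Q)
    (h : ∀ (r : ℕ) (b : Fin r → B) (m : Fin r →₀ ℕ), coeff m (P M b) ∈ S) : alg M ≤ S := by
  intro x hx
  have h1 : coefSpan M ≤ Subalgebra.toSubmodule S := by
    apply Submodule.span_le.2
    rintro _ ⟨r, b, m, rfl⟩
    exact h r b m
  exact h1 hx

/-- If locally at `p` the generic determinants come from polynomials over `R_p` (e.g. `B_p` free over `R_p`), then every
element of `alg (piRep M)` is, locally at `p`, in the image of `R`. `Jp` is the set of indices `j` with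
`p_j ≤ p`. -/
lemma exists_smul_eq_of_coeff {R B : Type*} [CommRing R] [CommRing B] [Algebra R B] {J : Type*} [Finite J]
    {K : J → Type*} [∀ j, CommRing (K j)] [∀ j, Algebra R (K j)] {n : ℕ}
    (M : ∀ j, B →ₐ[R] Matrix (Fin n) (Fin n) (K j)) (p : Ideal R) [p.IsPrime] (Jp : Set J)
    (hnot : ∀ j, j ∉ Jp → ∃ s : R, s ∉ p ∧ algebraMap R (K j) s = 0)
    (κ : ∀ j ∈ Jp, Localization.AtPrime p →+* K j)
    (hκ : ∀ j (hj : j ∈ Jp) a, κ j hj (algebraMap R _ a) = algebraMap R (K j) a)
    (hP : ∀ (r : ℕ) (b : Fin r → B), ∃ F : MvPolynomial (Fin r) (Localization.AtPrime p),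
      ∀ j (hj : j ∈ Jp), P (M j) b = map (κ j hj) F)
    {c : ∀ j, K j} (hc : c ∈ alg (piRep M)) : ∃ s r : R, s ∉ p ∧ s • c = algebraMap R (∀ j, K j) r := by
  classical
  -- the elements which are good locally at `p`
  let S : Subalgebra R (∀ j, K j) :=
    { carrier := {c | ∃ y : Localization.AtPrime p, ∀ j (hj : j ∈ Jp), c j = κ j hj y}
      mul_mem' := by
        rintro a b ⟨y, hy⟩ ⟨z, hz⟩
        exact ⟨y * z, fun j hj => by rw [Pi.mul_apply, hy j hj, hz j hj, map_mul]⟩
      add_mem' := by
        rintro a b ⟨y, hy⟩ ⟨z, hz⟩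
        exact ⟨y + z, fun j hj => by rw [Pi.add_apply, hy j hj, hz j hj, map_add]⟩
      algebraMap_mem' := fun r => ⟨algebraMap R _ r, fun j hj => by rw [hκ]; rfl⟩ }
  have h1 : alg (piRep M) ≤ S := by
    apply mem_range_of_coeff
    intro r b m
    obtain ⟨F, hF⟩ := hP r b
    exact ⟨coeff m F, fun j hj => by rw [coeff_piRep, hF j hj, coeff_map]⟩
  obtain ⟨y, hy⟩ := h1 hc
  obtain ⟨⟨r, s⟩, hrs⟩ := IsLocalization.surj p.primeCompl y
  have h2 : ∀ j, ∃ t : R, t ∉ p ∧ algebraMap R (K j) t * (algebraMap R (K j) s.1 * c j - algebraMap R (K j) r) = 0 := by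
    intro j
    by_cases hj : j ∈ Jp
    · refine ⟨1, fun h => (Ideal.ne_top_iff_one p).1 (Ideal.IsPrime.ne_top inferInstance) h, ?_⟩
      rw [hy j hj, ← hκ j hj s.1, ← map_mul, mul_comm (algebraMap R _ s.1), hrs, hκ j hj, sub_self, mul_zero]
    · obtain ⟨t, ht, ht0⟩ := hnot j hj
      exact ⟨t, ht, by rw [ht0, zero_mul]⟩
  choose t ht ht' using h2
  cases nonempty_fintype J
  let T : R := ∏ j, t j
  have hT : T ∉ p := by
    intro h
    obtain ⟨j, -, hj⟩ := (Ideal.IsPrime.prod_mem_iff (hp := inferInstance)).1 h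
    exact ht j hj
  refine ⟨T * s.1, T * r, fun h => ?_, ?_⟩
  · rcases Ideal.IsPrime.mem_or_mem inferInstance h with h | h
    · exact hT h
    · exact s.2 h
  · ext j
    have h3 : t j ∣ T := Finset.dvd_prod_of_mem _ (Finset.mem_univ j)
    obtain ⟨u, hu⟩ := h3
    have h4 : algebraMap R (K j) T * (algebraMap R (K j) s.1 * c j - algebraMap R (K j) r) = 0 := by
      rw [hu, map_mul, mul_comm (algebraMap R (K j) (t j)), mul_assoc, ht', mul_zero]
    change (T * s.1) • c j = algebraMap R (K j) (T * r)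
    rw [Algebra.smul_def, map_mul, map_mul, mul_assoc]
    rw [mul_sub, sub_eq_zero] at h4
    exact h4

end Free

end Groth.Agent.Ega2.H284.NormLawLoc
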